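import Cfsg.Agent.DR.Stmt

/-! The Frobenius lemma. -/

set_option autoImplicit false
set_option linter.unusedSectionVars false
set_option linter.unusedSimpArgs false
open Subgroup

namespace Cfsg.Agent.DR.E

variable {R : Type*} [Ring R] [Algebra ℚ R] {G : Type*} [Group G]

theorem exB [Finite G] (ρ : G →* R) :
    ∃ B : Subalgebra ℚ R, Module.Finite ℚ B ∧ ∀ g, ρ g ∈ B := by
  let S : Submodule ℚ R := Submodule.span ℚ (Set.range ρ)
  have hm : ∀ a b : R, a ∈ S → b ∈ S → a * b ∈ S := by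
    intro a b ha hb
    have := Submodule.mul_mem_mul ha hb
    rw [Submodule.span_mul_span] at this
    refine Submodule.span_mono ?_ this
    rintro _ ⟨_, ⟨g, rfl⟩, _, ⟨h, rfl⟩, rfl⟩
    exact ⟨g * h, map_mul ρ g h⟩
  have h1 : (1 : R) ∈ S := Submodule.subset_span ⟨1, map_one ρ⟩
  refine ⟨S.toSubalgebra h1 hm, ?_, fun g => Submodule.subset_span ⟨g, rfl⟩⟩
  exact Module.Finite.span_of_finite ℚ (Set.finite_range ρ)

theorem smul_cancel {c : ℚ} (hc : c ≠ 0) {a : R} (h : c • a = 0) : a = 0 := by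
  have := congrArg (c⁻¹ • ·) h
  simpa [smul_smul, inv_mul_cancel₀ hc] using this

/-- the trace of left multiplication -/
noncomputable def tr (B : Subalgebra ℚ R) : B →ₗ[ℚ] ℚ :=
  LinearMap.trace ℚ B ∘ₗ (Algebra.lmul ℚ B).toLinearMap

theorem tr_comm (B : Subalgebra ℚ R) (a b : B) : tr B (a * b) = tr B (b * a) := by
  simp only [tr, LinearMap.comp_apply, AlgHom.toLinearMap_apply, map_mul]
  exact LinearMap.trace_mul_comm _ _ _

theorem tr_idem (B : Subalgebra ℚ R) [Module.Finite ℚ B] {e : B} (he : e * e = e) :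
    tr B e = Module.finrank ℚ (LinearMap.range (Algebra.lmul ℚ B e)) := by
  have : IsIdempotentElem (Algebra.lmul ℚ B e) := by
    rw [IsIdempotentElem, ← map_mul, he]
  exact (LinearMap.IsIdempotentElem.isProj_range _ this).trace

theorem tr_one (B : Subalgebra ℚ R) [Module.Finite ℚ B] : tr B 1 = Module.finrank ℚ B := by
  simp only [tr, LinearMap.comp_apply, AlgHom.toLinearMap_apply, map_one]
  exact LinearMap.trace_one ℚ B

theorem tr_le (B : Subalgebra ℚ R) [Module.Finite ℚ B] {e f b : B} {z : R} (he : e * e = e)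
    (hf : f * f = f) (hb : e * b = b) (hz : z * b = f) : tr B f ≤ tr B e := by
  rw [tr_idem B he, tr_idem B hf, Nat.cast_le]
  let φ : LinearMap.range (Algebra.lmul ℚ B f) →ₗ[ℚ] LinearMap.range (Algebra.lmul ℚ B e) :=
    LinearMap.codRestrict _ ((Algebra.lmul ℚ B b).domRestrict _) fun m =>
      ⟨b * m, show e * (b * m) = b * m by rw [← mul_assoc, hb]⟩
  refine LinearMap.finrank_le_finrank_of_injective (f := φ) ?_
  rw [← LinearMap.ker_eq_bot, LinearMap.ker_eq_bot']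
  rintro ⟨m, m', rfl⟩ h
  have h' : b * (f * m') = 0 := congrArg Subtype.val h
  have h2 : (b : R) * (f * m') = 0 := congrArg Subtype.val h'
  have h3 : (f : R) * f = f := congrArg Subtype.val hf
  apply Subtype.ext
  apply Subtype.ext
  change (f : R) * m' = 0
  rw [← h3, mul_assoc, ← hz, mul_assoc, hz, h2, mul_zero]

section sums
variable (ρ : G →* R) (U : Subgroup G) [Fintype U]

theorem sum_left {a : G} (ha : a ∈ U) : ρ a * ∑ u : U, ρ u = ∑ u : U, ρ u := by
  rw [Finset.mul_sum]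
  exact Fintype.sum_equiv (Equiv.mulLeft (⟨a, ha⟩ : U)) _ _ fun u => by simp

theorem sum_right {a : G} (ha : a ∈ U) : (∑ u : U, ρ u) * ρ a = ∑ u : U, ρ u := by
  rw [Finset.sum_mul]
  exact Fintype.sum_equiv (Equiv.mulRight (⟨a, ha⟩ : U)) _ _ fun u => by simp

theorem sum_comm' {x : G} (hx : ∀ a ∈ U, x * a * x⁻¹ ∈ U) :
    ρ x * ∑ u : U, ρ u = (∑ u : U, ρ u) * ρ x := by
  rw [Finset.mul_sum, Finset.sum_mul]
  refine Fintype.sum_bijective (fun u : U => (⟨x * u * x⁻¹, hx u u.2⟩ : U))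
    (Finite.injective_iff_bijective.1 fun u v h => ?_) _ _ fun u => ?_
  · have := congrArg Subtype.val h
    simp only [mul_left_inj, mul_right_inj] at this
    exact Subtype.ext this
  · simp only [← map_mul]; congr 1; group

theorem sum_fpf {y : G} (hx : ∀ a ∈ U, y * a * y⁻¹ ∈ U) (hf : ∀ a ∈ U, y * a = a * y → a = 1) :
    ∑ u : U, ρ u * ρ y * ρ (u : G)⁻¹ = (∑ u : U, ρ u) * ρ y := by
  rw [Finset.sum_mul]
  refine Fintype.sum_bijective
    (fun u : U => (⟨u * (y * u⁻¹ * y⁻¹), U.mul_mem u.2 (hx _ (U.inv_mem u.2))⟩ : U))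
    (Finite.injective_iff_bijective.1 fun u v h => ?_) _ _ fun u => ?_
  · have h1 : (u : G) * (y * (u : G)⁻¹ * y⁻¹) = v * (y * (v : G)⁻¹ * y⁻¹) := congrArg Subtype.val h
    have h2 := hf ((v : G)⁻¹ * u) (U.mul_mem (U.inv_mem v.2) u.2) (by
      calc y * ((v : G)⁻¹ * u) = (v : G)⁻¹ * (v * (y * (v : G)⁻¹ * y⁻¹)) * y * u := by group
        _ = (v : G)⁻¹ * u * y := by rw [← h1]; group)
    exact Subtype.ext (inv_mul_eq_one.1 h2).symm
  · simp only [← map_mul]; congr 1; simp [mul_assoc]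

end sums

theorem fl [Finite G] (ρ : G →* R) (ok : Ok R) (hρ : Function.Injective ρ) (U : Subgroup G)
    (x : G) (hU : U ≠ ⊥) (hp : (orderOf x).Prime) (h2 : orderOf x ≠ 2)
    (hn : ∀ a ∈ U, x * a * x⁻¹ ∈ U) (hf : ∀ a ∈ U, x * a = a * x → a = 1) : False := by
  classical
  let _ := Fintype.ofFinite U
  obtain ⟨r, hr⟩ : ∃ r, r = orderOf x := ⟨_, rfl⟩
  rw [← hr] at hp h2
  have r3 : 3 ≤ r := by have := hp.two_le; omega
  have r0 : (r : ℚ) ≠ 0 := by positivity
  have hxr : x ^ r = 1 := hr ▸ pow_orderOf_eq_one x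
  have x1 : x ≠ 1 := by rintro rfl; rw [orderOf_one] at hr; omega
  have n0 : ((Fintype.card U : ℕ) : ℚ) ≠ 0 := by positivity
  have hn' : ∀ i : ℕ, ∀ a ∈ U, x ^ i * a * (x ^ i)⁻¹ ∈ U := by
    intro i
    induction i with
    | zero => simp
    | succ i ih =>
      intro a ha
      have := hn _ (ih a ha)
      rwa [show x * (x ^ i * a * (x ^ i)⁻¹) * x⁻¹ = x ^ (i + 1) * a * (x ^ (i + 1))⁻¹ by
        rw [pow_succ']; group] at this
  have hf' : ∀ i : ℕ, 0 < i → i < r → ∀ a ∈ U, x ^ i * a = a * x ^ i → a = 1 := by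
    intro i i0 ir a ha h
    obtain ⟨m, hm⟩ := exists_pow_eq_self_of_coprime (x := x) (n := i)
      (hr ▸ (Nat.coprime_of_lt_prime i0.ne' ir hp).symm)
    exact hf a ha (hm ▸ (Commute.pow_left h m))
  obtain ⟨n, hnn⟩ : ∃ n : ℚ, n = (Fintype.card U : ℕ) := ⟨_, rfl⟩
  rw [← hnn] at n0
  obtain ⟨SU, hSU⟩ : ∃ S, S = ∑ u : U, ρ u := ⟨_, rfl⟩
  obtain ⟨SX, hSX⟩ : ∃ S, S = ∑ i ∈ Finset.range r, ρ x ^ i := ⟨_, rfl⟩
  have key : ∃ T, ∑ u : U, ρ u * SX * ρ (u : G)⁻¹ = n • (1 : R) + SU * T := by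
    refine ⟨∑ i ∈ Finset.range (r - 1), ρ (x ^ (i + 1)), ?_⟩
    simp only [hSX, Finset.mul_sum, Finset.sum_mul]
    rw [Finset.sum_comm, show r = (r - 1) + 1 by omega, Finset.sum_range_succ', add_comm]
    congr 1
    · simp only [pow_zero, mul_one, ← map_mul, mul_inv_cancel, map_one, Finset.sum_const, hnn,
        Finset.card_univ, Nat.cast_smul_eq_nsmul]
    · refine Finset.sum_congr (by simp) fun i hi => ?_
      rw [hSU, ← sum_fpf ρ U (hn' _) (hf' _ (by omega) (by simp at hi; omega))]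
      simp
  obtain ⟨T, key⟩ := key
  have xS : ρ x * SX = SX := by
    have := mul_geom_sum (ρ x) r
    rw [← map_pow, hxr, map_one, sub_self, sub_mul, one_mul, sub_eq_zero, ← hSX] at this
    exact this
  have SS : SX * SX = (r : ℚ) • SX := by
    have : ∀ i : ℕ, ρ x ^ i * SX = SX := by
      intro i
      induction i with
      | zero => simp
      | succ i ih => rw [pow_succ, mul_assoc, xS, ih]
    nth_rewrite 1 [hSX]
    rw [Finset.sum_mul]
    simp [this, Nat.cast_smul_eq_nsmul]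
  have UU : SU * SU = n • SU := by
    nth_rewrite 1 [hSU]
    rw [Finset.sum_mul]
    have : ∀ u : U, ρ u * SU = SU := fun u => hSU ▸ sum_left ρ U u.2
    simp [this, hnn, Nat.cast_smul_eq_nsmul]
  obtain ⟨e, he⟩ : ∃ e, e = (r : ℚ)⁻¹ • SX := ⟨_, rfl⟩
  obtain ⟨a, ha⟩ : ∃ a, a = n⁻¹ • SU := ⟨_, rfl⟩
  have ee : e * e = e := by
    rw [he, smul_mul_smul_comm, SS, smul_smul]; congr 1; field_simp
  have aa : a * a = a := by
    rw [ha, smul_mul_smul_comm, UU, smul_smul]; congr 1; field_simp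
  have aS : a * SU = SU := by rw [ha, smul_mul_assoc, UU, smul_smul, inv_mul_cancel₀ n0, one_smul]
  have au : ∀ u ∈ U, Commute a (ρ u) := fun u hu => by
    rw [ha, hSU]
    exact Commute.smul_left ((sum_right ρ U hu).trans (sum_left ρ U hu).symm) _
  have ae : Commute a e := by
    have : Commute SU (ρ x) := hSU ▸ (sum_comm' ρ U hn).symm
    rw [ha, he, hSX]
    exact (Commute.sum_right _ _ _ fun i _ => this.pow_right i).smul_left _ |>.smul_right _
  have key1 : ∑ u : U, ρ u * e * ρ (u : G)⁻¹ = (r : ℚ)⁻¹ • (n • (1 : R) + SU * T) := by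
    rw [← key, Finset.smul_sum]; simp [he]
  have key2 : ∑ u : U, ρ u * ((1 - a) * e) * ρ (u : G)⁻¹ = ((r : ℚ)⁻¹ * n) • (1 - a) := by
    have : ∀ u : U, ρ u * ((1 - a) * e) * ρ (u : G)⁻¹ = (1 - a) * (ρ u * e * ρ (u : G)⁻¹) := by
      intro u
      have := ((Commute.one_left _).sub_left (au u u.2)).eq
      rw [← mul_assoc, ← this]; simp only [mul_assoc]
    simp only [this]
    rw [← Finset.mul_sum, key1, mul_smul_comm, mul_add, ← mul_assoc, sub_mul 1 a SU, aS]
    simp [smul_smul]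
  have c0 : (r : ℚ)⁻¹ * n ≠ 0 := mul_ne_zero (inv_ne_zero r0) n0
  have f0 : 1 - a ≠ 0 := by
    intro h
    apply hU
    rw [eq_bot_iff]
    intro u hu
    have h1 : ρ u * a = a := by rw [ha, mul_smul_comm, hSU, sum_left ρ U hu]
    rw [← sub_eq_zero.1 h, mul_one] at h1
    exact hρ (h1.trans (map_one ρ).symm)
  have e0 : (1 - a) * e ≠ 0 := by
    intro h
    rw [h] at key2
    simp only [mul_zero, zero_mul, Finset.sum_const_zero] at key2
    exact f0 (smul_cancel c0 key2.symm)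
  have e1 : (1 - a) - (1 - a) * e ≠ 0 := by
    intro h
    rw [← sub_eq_zero.1 h] at key2
    have : ∀ u : U, ρ u * (1 - a) * ρ (u : G)⁻¹ = 1 - a := by
      intro u
      rw [← ((Commute.one_left _).sub_left (au u u.2)).eq, mul_assoc, ← map_mul]; simp
    simp only [this, Finset.sum_const, Finset.card_univ, ← Nat.cast_smul_eq_nsmul ℚ, ← hnn] at key2
    refine f0 (smul_cancel (c := n - (r : ℚ)⁻¹ * n) ?_ (by rw [sub_smul, key2, sub_self]))
    have : n - (r : ℚ)⁻¹ * n = (r : ℚ)⁻¹ * n * (r - 1) := by field_simp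
    rw [this]
    refine mul_ne_zero c0 (sub_ne_zero.2 ?_)
    exact_mod_cast (by omega : r ≠ 1)
  have ea : e * a = a * e := ae.eq.symm
  have eaa : ∀ w, e * (a * w) = a * (e * w) := fun w => by rw [← mul_assoc, ea, mul_assoc]
  have aaa : ∀ w, a * (a * w) = a * w := fun w => by rw [← mul_assoc, aa]
  have a0 : a = 0 := by
    rcases ok.o3 ((1 - a) * e) ((1 - a) - (1 - a) * e) a
      (by simp [mul_sub, sub_mul, mul_assoc, ee, eaa, aaa])
      (by simp [mul_sub, sub_mul, mul_assoc, ee, eaa, aaa, ea, aa]) aa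
      (by simp [mul_sub, sub_mul, mul_assoc, ee, eaa, aaa, ea, aa])
      (by simp [mul_sub, sub_mul, mul_assoc, ee, eaa, aaa, ea, aa])
      (by simp [mul_sub, sub_mul, mul_assoc, ee, eaa, aaa, ea, aa])
      (by simp [mul_sub, sub_mul, mul_assoc, ee, eaa, aaa, ea, aa])
      (by simp [mul_sub, sub_mul, mul_assoc, ee, eaa, aaa, ea, aa])
      (by simp [mul_sub, sub_mul, mul_assoc, ee, eaa, aaa, ea, aa]) with h | h | h
    · exact (e0 h).elim
    · exact (e1 h).elim
    · exact h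
  simp only [a0, sub_zero, one_mul] at key2 e0 e1 f0
  by_cases hb : ∀ u : U, e * ρ (u : G)⁻¹ * (1 - e) = 0
  · have := congrArg (· * (1 - e)) key2
    simp only [Finset.sum_mul, mul_assoc (ρ _) e, mul_assoc (ρ _) (e * _), hb, mul_zero,
      Finset.sum_const_zero, smul_mul_assoc, one_mul] at this
    exact e1 (smul_cancel c0 this.symm)
  push Not at hb
  obtain ⟨y, hy⟩ := hb
  obtain ⟨b, hb⟩ : ∃ b, b = e * ρ (y : G)⁻¹ * (1 - e) := ⟨_, rfl⟩
  rw [← hb] at hy
  obtain ⟨z, hz⟩ := ok.reg b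
  have be : b * e = 0 := by simp [hb, mul_assoc, sub_mul, ee]
  have eb : e * b = b := by simp only [hb, ← mul_assoc, ee]
  obtain ⟨g, hg⟩ : ∃ g, g = (1 - e) * z * b := ⟨_, rfl⟩
  have bg : b * g = b := by rw [hg, ← mul_assoc, ← mul_assoc, mul_sub, be, mul_one, sub_zero, hz]
  have gg : g * g = g := by nth_rewrite 1 [hg]; rw [mul_assoc, bg, hg]
  have eg : e * g = 0 := by rw [hg, ← mul_assoc, ← mul_assoc, mul_sub, ee]; simp
  have ge : g * e = 0 := by rw [hg, mul_assoc, be, mul_zero]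
  have g1 : g = 1 - e := by
    rcases ok.o3 e g (1 - e - g) ee gg (by simp [mul_sub, sub_mul, ee, gg, eg, ge]) eg ge
      (by simp [mul_sub, ee, eg]) (by simp [sub_mul, ee, ge]) (by simp [mul_sub, gg, ge])
      (by simp [sub_mul, gg, eg]) with h | h | h
    · exact (e0 h).elim
    · rw [h, mul_zero] at bg; exact (hy bg.symm).elim
    · exact (sub_eq_zero.1 h).symm
  obtain ⟨B, hB, hm⟩ := exB ρ
  have eB : e ∈ B := by
    rw [he, hSX]
    exact B.smul_mem (B.sum_mem fun i _ => B.pow_mem (hm x) i) _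
  have bB : b ∈ B := hb ▸ B.mul_mem (B.mul_mem eB (hm _)) (B.sub_mem B.one_mem eB)
  let e' : B := ⟨e, eB⟩
  have ee' : e' * e' = e' := Subtype.ext ee
  have t1 := tr_le B (e := e') (f := 1 - e') (b := ⟨b, bB⟩) (z := (1 - e) * z) ee'
    (by simp [mul_sub, sub_mul, ee']) (Subtype.ext eb) (hg.symm.trans g1)
  have k3 : ∑ u : U, (⟨ρ u, hm _⟩ : B) * e' * ⟨ρ (u : G)⁻¹, hm _⟩ = ((r : ℚ)⁻¹ * n) • (1 : B) := by
    apply Subtype.ext
    simpa using key2
  have t2 := congrArg (tr B) k3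
  have t3 : ∀ u : U, tr B ((⟨ρ u, hm _⟩ : B) * e' * ⟨ρ (u : G)⁻¹, hm _⟩) = tr B e' := by
    intro u
    rw [tr_comm, ← mul_assoc]
    congr 1
    apply Subtype.ext
    simp [← map_mul]
  simp only [map_sum, t3, Finset.sum_const, Finset.card_univ, map_smul, nsmul_eq_mul, ← hnn,
    smul_eq_mul] at t2
  rw [map_sub] at t1
  have : Nontrivial B := ⟨⟨1, 0, fun h => f0 (congrArg Subtype.val h)⟩⟩
  have t4 : 0 < tr B 1 := by rw [tr_one]; exact_mod_cast Module.finrank_pos
  have t5 : tr B 1 = r * tr B e' := by field_simp at t2; linarith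
  have r3' : (3 : ℚ) ≤ r := by exact_mod_cast r3
  nlinarith

end Cfsg.Agent.DR.E

namespace Cfsg.Agent.DR

universe u v

theorem flThm : FLThm.{u, v} := fun _ _ _ _ _ _ ρ ok hρ U x => E.fl ρ ok hρ U x

end Cfsg.Agent.DR
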