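import Cfsg.Agent.DR.E1

/-! The binary octahedral group inside a ring without three orthogonal idempotents. -/

set_option autoImplicit false
set_option linter.unusedSectionVars false
set_option linter.unusedSimpArgs false

namespace Cfsg.Agent.DR.E

/-- no three nonzero orthogonal idempotents -/
def O3 (R : Type*) [Ring R] : Prop :=
  ∀ a b c : R, a * a = a → b * b = b → c * c = c → a * b = 0 → b * a = 0 → a * c = 0 →
    c * a = 0 → b * c = 0 → c * b = 0 → a = 0 ∨ b = 0 ∨ c = 0

/-- relations of the quaternion group of order 16 -/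
structure Q16 {R : Type*} [Ring R] (g i j : R) : Prop where
  gg : g * g = i
  ii : i * i = -1
  jj : j * j = -1
  ji : j * i = -(i * j)
  gj : g * j = i * (j * g)

/-- relations of the binary octahedral group -/
structure Oc {R : Type*} [Ring R] (g i j x : R) : Prop extends Q16 g i j where
  xi : x * i = j * x
  xj : x * j = i * (j * x)
  xxx : x * (x * x) = 1
  gx : g * x = i * (j * (x * (x * g)))

variable {R : Type*} [Ring R] {g i j x : R}

namespace Q16
variable (h : Q16 g i j)
include h
theorem gi : g * i = i * g := by rw [← h.gg, mul_assoc]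
theorem gg' (w : R) : g * (g * w) = i * w := by rw [← mul_assoc, h.gg]
theorem ii' (w : R) : i * (i * w) = -w := by rw [← mul_assoc, h.ii, neg_one_mul]
theorem jj' (w : R) : j * (j * w) = -w := by rw [← mul_assoc, h.jj, neg_one_mul]
theorem ji' (w : R) : j * (i * w) = -(i * (j * w)) := by
  rw [← mul_assoc, h.ji, neg_mul, mul_assoc]
theorem gj' (w : R) : g * (j * w) = i * (j * (g * w)) := by
  rw [← mul_assoc, h.gj]; simp only [mul_assoc]
theorem gi' (w : R) : g * (i * w) = i * (g * w) := by rw [← mul_assoc, h.gi, mul_assoc]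
end Q16

namespace Oc
variable (h : Oc g i j x)
include h
theorem xi' (w : R) : x * (i * w) = j * (x * w) := by rw [← mul_assoc, h.xi, mul_assoc]
theorem xj' (w : R) : x * (j * w) = i * (j * (x * w)) := by
  rw [← mul_assoc, h.xj]; simp only [mul_assoc]
theorem xxx' (w : R) : x * (x * (x * w)) = w := by
  rw [← mul_assoc x x w, ← mul_assoc, h.xxx, one_mul]
theorem gx' (w : R) : g * (x * w) = i * (j * (x * (x * (g * w)))) := by
  rw [← mul_assoc, h.gx]; simp only [mul_assoc]

variable [Algebra ℚ R]

theorem exc : ∃ c : R, c * i = i * c ∧ c * j = j * c ∧ c * (c * c) = 1 ∧ g * c = c * (c * g) ∧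
    x = (-1 / 2 : ℚ) • ((1 + i + j + i * j) * c) := by
  refine ⟨(1 / 2 : ℚ) • ((-1 + i + j + i * j) * x), ?_, ?_, ?_, ?_, ?_⟩ <;>
  · simp only [mul_add, add_mul, mul_assoc, smul_mul_assoc, mul_smul_comm, neg_mul, mul_neg, one_mul,
      mul_one, neg_neg, h.gg, h.ii, h.jj, h.ji, h.gj, h.gi, h.gg', h.ii', h.jj', h.ji', h.gj',
      h.gi', h.xi, h.xj, h.xxx, h.gx, h.xi', h.xj', h.xxx', h.gx']
    module

theorem c_cases (o3 : O3 R) {c : R} (ci : c * i = i * c) (cj : c * j = j * c)
    (ccc : c * (c * c) = 1) (hx : x = (-1 / 2 : ℚ) • ((1 + i + j + i * j) * c)) :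
    c = 1 ∨ c * c = -1 - c := by
  have ci' : ∀ w, c * (i * w) = i * (c * w) := fun w => by rw [← mul_assoc, ci, mul_assoc]
  have cj' : ∀ w, c * (j * w) = j * (c * w) := fun w => by rw [← mul_assoc, cj, mul_assoc]
  have ccc' : ∀ w, c * (c * (c * w)) = w := fun w => by
    rw [← mul_assoc c c w, ← mul_assoc, ccc, one_mul]
  obtain ⟨f, hf⟩ : ∃ f, f = (1 / 3 : ℚ) • (1 + c + c * c) := ⟨_, rfl⟩
  obtain ⟨e, he⟩ : ∃ e, e = (1 / 3 : ℚ) • (1 + x + x * x) := ⟨_, rfl⟩
  have cf : c * f = f := by
    simp only [hf, mul_add, mul_smul_comm, mul_one, ccc]; module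
  have ff : f * f = f := by
    nth_rewrite 1 [hf]
    simp only [add_mul, smul_mul_assoc, one_mul, mul_assoc, cf]; module
  have xe : x * e = e := by
    simp only [he, mul_add, mul_smul_comm, mul_one, h.xxx]; module
  have ee : e * e = e := by
    nth_rewrite 1 [he]
    simp only [add_mul, smul_mul_assoc, one_mul, mul_assoc, xe]; module
  have fi : f * i = i * f := by
    simp only [hf, mul_add, add_mul, smul_mul_assoc, mul_smul_comm, mul_one, one_mul, mul_assoc, ci,
      ci']
  have fj : f * j = j * f := by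
    simp only [hf, mul_add, add_mul, smul_mul_assoc, mul_smul_comm, mul_one, one_mul, mul_assoc, cj,
      cj']
  have fc : f * c = c * f := by
    simp only [hf, mul_add, add_mul, smul_mul_assoc, mul_smul_comm, mul_one, one_mul, mul_assoc]
  have fx : Commute f x := by
    have a1 : Commute f i := fi
    have a2 : Commute f j := fj
    have a3 : Commute f c := fc
    rw [hx]
    exact ((((Commute.one_right f).add_right a1).add_right a2).add_right
      (a1.mul_right a2)).mul_right a3 |>.smul_right _
  have fe : f * e = e * f := by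
    rw [he]
    exact (((Commute.one_right f).add_right fx).add_right (fx.mul_right fx)).smul_right _
  have fe' : ∀ w, f * (e * w) = e * (f * w) := fun w => by rw [← mul_assoc, fe, mul_assoc]
  have ee' : ∀ w, e * (e * w) = e * w := fun w => by rw [← mul_assoc, ee]
  obtain ⟨q, hq⟩ : ∃ q, q = 1 - f := ⟨_, rfl⟩
  have qi : q * i = i * q := by rw [hq, sub_mul, mul_sub, fi, one_mul, mul_one]
  have qj : q * j = j * q := by rw [hq, sub_mul, mul_sub, fj, one_mul, mul_one]
  have q0 : q = 0 → c = 1 := fun h0 => by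
    rw [hq, sub_eq_zero] at h0
    rw [← h0, mul_one] at cf; exact cf
  rcases o3 (e * q) (q - e * q) f
      (by simp [hq, mul_sub, sub_mul, mul_assoc, ee, ee', ff, fe, fe'])
      (by simp [hq, mul_sub, sub_mul, mul_assoc, ee, ee', ff, fe, fe']) ff
      (by simp [hq, mul_sub, sub_mul, mul_assoc, ee, ee', ff, fe, fe'])
      (by simp [hq, mul_sub, sub_mul, mul_assoc, ee, ee', ff, fe, fe'])
      (by simp [hq, mul_sub, sub_mul, mul_assoc, ee, ee', ff, fe, fe'])
      (by simp [hq, mul_sub, sub_mul, mul_assoc, ee, ee', ff, fe, fe'])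
      (by simp [hq, mul_sub, sub_mul, mul_assoc, ee, ee', ff, fe, fe'])
      (by simp [hq, mul_sub, sub_mul, mul_assoc, ee, ee', ff, fe, fe']) with h1 | h1 | h1
  · left
    apply q0
    have fq : f * q = 0 := by rw [hq, mul_sub, ff, mul_one, sub_self]
    have ccq : c * (c * q) = -q - c * q := by
      have : (1 + c + c * c) * q = 0 := smul_cancel (c := 1 / 3) (by norm_num) (by
        rw [← smul_mul_assoc, ← hf, fq])
      simp only [add_mul, one_mul, mul_assoc] at this
      linear_combination (norm := abel1) this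
    have h2 : (1 + x + x * x) * q = 0 := smul_cancel (c := 1 / 3) (by norm_num) (by
        rw [← smul_mul_assoc, ← he, h1])
    have h3 : (1 + c + c) * ((1 + x + x * x) * q) = 0 := by rw [h2, mul_zero]
    have h4 : (1 + i + j + i * j) * q = (-2 : ℚ) • (c * q) := by
      refine sub_eq_zero.1 (smul_cancel (c := 3 / 2) (by norm_num) ?_)
      rw [← h3]
      simp only [hx, mul_add, add_mul, mul_sub, mul_assoc, smul_mul_assoc, mul_smul_comm, neg_mul,
        mul_neg, one_mul, mul_one, neg_neg, h.ii', h.jj', h.ji', ci', cj', ccq]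
      module
    have h5 : i * ((1 + i + j + i * j) * q) = (1 + i + j + i * j) * q * i := by
      rw [h4, mul_smul_comm, smul_mul_assoc, mul_assoc, qi, ci']
    simp only [mul_add, add_mul, mul_assoc, qi, one_mul, neg_mul, mul_neg, neg_neg, h.ii', h.jj',
      h.ji'] at h5
    have h6 : i * (j * q) = j * q := smul_cancel (c := 2) (by norm_num) (a := _ - _) (by
      linear_combination (norm := module) h5) |> sub_eq_zero.1
    have h7 := h.ii' (j * q)
    rw [h6, h6] at h7
    have h8 : j * q = 0 := smul_cancel (c := 2) (by norm_num) (by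
      linear_combination (norm := module) h7)
    have := h.jj' q
    rw [h8, mul_zero] at this
    exact neg_eq_zero.1 this.symm
  · left
    apply q0
    have xq : x * q = q := by rw [sub_eq_zero.1 h1, ← mul_assoc, xe]
    have h2 : i * q = j * q := by
      have := h.xi' q
      rwa [xq, ← qi, ← mul_assoc, xq, qi] at this
    have h3 := h.ji' q
    rw [← h2, h.ii', h2, h.jj'] at h3
    exact smul_cancel (c := 2) (by norm_num) (by linear_combination (norm := module) -h3)
  · right
    have : 1 + c + c * c = 0 := smul_cancel (c := 1 / 3) (by norm_num) (hf ▸ h1)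
    linear_combination (norm := abel1) this

theorem exb (o3 : O3 R) : ∃ b : R, b * j = j * b ∧ b * g = -(g * b) ∧
    ((b = 0 ∧ x + x = -(1 + i + j + i * j)) ∨
      (b * b = -1 - 1 - 1 ∧ x + x + x + x = (1 + i + j + i * j) * (1 - b))) := by
  obtain ⟨c, ci, cj, ccc, gc, hx⟩ := h.exc
  rcases h.c_cases o3 ci cj ccc hx with h1 | h1
  · refine ⟨0, by simp, by simp, Or.inl ⟨rfl, ?_⟩⟩
    rw [hx, h1, mul_one]; module
  · have gc' : g * c = -g - c * g := by rw [gc, ← mul_assoc, h1, sub_mul, neg_one_mul]
    refine ⟨1 + c + c, ?_, ?_, Or.inr ⟨?_, ?_⟩⟩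
    · simp only [add_mul, mul_add, cj, one_mul, mul_one]
    · simp only [add_mul, mul_add, gc', one_mul, mul_one]; abel
    · simp only [add_mul, mul_add, h1, one_mul, mul_one]; abel
    · nth_rewrite 1 2 3 4 [hx]
      simp only [mul_add, mul_sub, mul_one]; module

end Oc

end Cfsg.Agent.DR.E
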