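import Cfsg.Agent.DR.E2

/-! Invariant subspaces of dimension at most 4. -/

set_option autoImplicit false
set_option linter.unusedSectionVars false
set_option linter.unusedSimpArgs false

namespace Cfsg.Agent.DR.E

variable {A : Type*} [Ring A] [Algebra ℂ A]

/-- elements stabilizing a subspace under left multiplication -/
def stab (W : Submodule ℂ A) : Subalgebra ℂ A where
  carrier := {a | ∀ w ∈ W, a * w ∈ W}
  mul_mem' ha hb w hw := by rw [mul_assoc]; exact ha _ (hb _ hw)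
  add_mem' ha hb w hw := by rw [add_mul]; exact W.add_mem (ha _ hw) (hb _ hw)
  algebraMap_mem' r w hw := by rw [← Algebra.smul_def]; exact W.smul_mem _ hw

theorem mem_stab {W : Submodule ℂ A} {a : A} : a ∈ stab W ↔ ∀ w ∈ W, a * w ∈ W := Iff.rfl

theorem stab_span {s : Set A} {a : A} (h : ∀ w ∈ s, a * w ∈ Submodule.span ℂ s) :
    a ∈ stab (Submodule.span ℂ s) := by
  intro w hw
  induction hw using Submodule.span_induction with
  | mem w hw => exact h w hw
  | zero => simp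
  | add _ _ _ _ h1 h2 => rw [mul_add]; exact Submodule.add_mem _ h1 h2
  | smul c _ _ h1 => rw [mul_smul_comm]; exact Submodule.smul_mem _ _ h1

variable [Module.Finite ℂ A]

theorem eig {W : Submodule ℂ A} (hW : W ≠ ⊥) {a : A} (ha : a ∈ stab W) :
    ∃ μ : ℂ, ∃ w ∈ W, w ≠ 0 ∧ a * w = μ • w := by
  have : Nontrivial W := Submodule.nontrivial_iff_ne_bot.2 hW
  obtain ⟨μ, hμ⟩ := Module.End.exists_eigenvalue ((Algebra.lmul ℂ A a).restrict (p := W) ha)
  obtain ⟨w, hw⟩ := hμ.exists_hasEigenvector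
  exact ⟨μ, w, w.2, fun h => hw.2 (Subtype.ext h), congrArg Subtype.val hw.apply_eq_smul⟩

theorem eigL (l : List A) (hl : l.Pairwise Commute) {W : Submodule ℂ A} (hW : W ≠ ⊥)
    (ha : ∀ a ∈ l, a ∈ stab W) : ∃ w ∈ W, w ≠ 0 ∧ ∀ a ∈ l, ∃ μ : ℂ, a * w = μ • w := by
  induction l generalizing W with
  | nil => simpa using (Submodule.ne_bot_iff W).1 hW
  | cons a l ih =>
    obtain ⟨μ, w, hw, w0, e⟩ := eig hW (ha a (by simp))
    let W' : Submodule ℂ A := W ⊓ Module.End.eigenspace (Algebra.lmul ℂ A a) μ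
    have mem : ∀ v, v ∈ W' ↔ v ∈ W ∧ a * v = μ • v := fun v => by
      simp [W', Module.End.mem_eigenspace_iff]
    obtain ⟨v, hv, v0, e'⟩ := ih hl.of_cons (W := W')
      ((Submodule.ne_bot_iff _).2 ⟨w, (mem w).2 ⟨hw, e⟩, w0⟩) (fun b hb v hv => by
        rw [mem] at hv ⊢
        refine ⟨ha b (by simp [hb]) v hv.1, ?_⟩
        rw [← mul_assoc, (List.rel_of_pairwise_cons hl hb).eq, mul_assoc, hv.2, mul_smul_comm])
    refine ⟨v, ((mem v).1 hv).1, v0, fun b hb => ?_⟩
    rcases List.mem_cons.1 hb with rfl | hb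
    · exact ⟨μ, ((mem v).1 hv).2⟩
    · exact e' b hb

theorem inv4 [Nontrivial A] {g i j b c d : A} (h : Q16 g i j) (bj : b * j = j * b)
    (bg : b * g = -(g * b)) (cg : Commute c g) (cj : Commute c j) (cb : Commute c b)
    (dg : Commute d g) (dj : Commute d j) (db : Commute d b) (cd : Commute c d) :
    ∃ W : Submodule ℂ A, W ≠ ⊥ ∧ Module.finrank ℂ W ≤ 4 ∧ g ∈ stab W ∧ j ∈ stab W ∧ b ∈ stab W ∧
      c ∈ stab W ∧ d ∈ stab W := by
  classical
  have ib : Commute i b := by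
    show i * b = b * i
    rw [← h.gg, ← mul_assoc b, bg, neg_mul, mul_assoc g b, bg]; simp [mul_assoc]
  obtain ⟨v, -, v0, hv⟩ := eigL [i, b, c, d] (W := ⊤) (by
    simp only [List.pairwise_cons, List.mem_cons, forall_eq_or_imp, List.not_mem_nil,
      IsEmpty.forall_iff, implies_true, and_true, List.Pairwise.nil]
    exact ⟨⟨ib, h.gg ▸ (cg.mul_right cg).symm, h.gg ▸ (dg.mul_right dg).symm⟩, ⟨cb.symm, db.symm⟩,
      cd⟩) top_ne_bot (fun _ _ _ _ => trivial)
  obtain ⟨μ, hi⟩ := hv i (by simp)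
  obtain ⟨β, hb⟩ := hv b (by simp)
  obtain ⟨γ, hc⟩ := hv c (by simp)
  obtain ⟨δ, hd⟩ := hv d (by simp)
  let s : Finset A := {v, g * v, j * v, j * (g * v)}
  have m1 : v ∈ Submodule.span ℂ (s : Set A) := Submodule.subset_span (by simp [s])
  have m2 : g * v ∈ Submodule.span ℂ (s : Set A) := Submodule.subset_span (by simp [s])
  have m3 : j * v ∈ Submodule.span ℂ (s : Set A) := Submodule.subset_span (by simp [s])
  have m4 : j * (g * v) ∈ Submodule.span ℂ (s : Set A) := Submodule.subset_span (by simp [s])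
  have key : ∀ a : A, a * v ∈ Submodule.span ℂ (s : Set A) →
      a * (g * v) ∈ Submodule.span ℂ (s : Set A) → a * (j * v) ∈ Submodule.span ℂ (s : Set A) →
      a * (j * (g * v)) ∈ Submodule.span ℂ (s : Set A) → a ∈ stab (Submodule.span ℂ (s : Set A)) := by
    intro a h1 h2 h3 h4
    refine stab_span fun w hw => ?_
    simp only [s, Finset.coe_insert, Finset.coe_singleton, Set.mem_insert_iff,
      Set.mem_singleton_iff] at hw
    rcases hw with rfl | rfl | rfl | rfl <;> assumption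
  have ij : ∀ w, i * (j * w) = -(j * (i * w)) := fun w => by rw [h.ji', neg_neg]
  have ig : ∀ w, i * (g * w) = g * (i * w) := fun w => (h.gi' w).symm
  have cen : ∀ (a : A) (ν : ℂ), a * v = ν • v → Commute a g → Commute a j →
      a ∈ stab (Submodule.span ℂ (s : Set A)) := by
    intro a ν e ag aj
    have ag' : ∀ w, a * (g * w) = g * (a * w) := fun w => by rw [← mul_assoc, ag.eq, mul_assoc]
    have aj' : ∀ w, a * (j * w) = j * (a * w) := fun w => by rw [← mul_assoc, aj.eq, mul_assoc]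
    refine key a ?_ ?_ ?_ ?_ <;> simp only [ag', aj', e, mul_smul_comm] <;>
      exact Submodule.smul_mem _ _ (by assumption)
  refine ⟨Submodule.span ℂ (s : Set A), (Submodule.ne_bot_iff _).2 ⟨v, m1, v0⟩,
    (finrank_span_finset_le_card s).trans Finset.card_le_four, key g m2 ?_ ?_ ?_,
    key j m3 m4 ?_ ?_, ?_, cen c γ hc cg cj, cen d δ hd dg dj⟩
  · rw [h.gg', hi]; exact Submodule.smul_mem _ _ m1
  · rw [h.gj', ij, ig, hi, mul_smul_comm, mul_smul_comm]
    exact Submodule.neg_mem _ (Submodule.smul_mem _ _ m4)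
  · rw [h.gj', h.gg', ij, h.ii', mul_neg, neg_neg]; exact m3
  · rw [h.jj']; exact Submodule.neg_mem _ m1
  · rw [h.jj']; exact Submodule.neg_mem _ m2
  · have bg' : ∀ w, b * (g * w) = -(g * (b * w)) := fun w => by
      rw [← mul_assoc, bg, neg_mul, mul_assoc]
    have bj' : ∀ w, b * (j * w) = j * (b * w) := fun w => by rw [← mul_assoc, bj, mul_assoc]
    refine key b ?_ ?_ ?_ ?_ <;> simp only [bg', bj', hb, mul_smul_comm, mul_neg, neg_mem_iff] <;>
      exact Submodule.smul_mem _ _ (by assumption)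

theorem mem_of_smul (S : Subalgebra ℂ A) {a b : A} (c : ℂ) (hc : c ≠ 0) (h : c • a = b)
    (hb : b ∈ S) : a ∈ S := by
  have := S.smul_mem hb c⁻¹
  rwa [← h, smul_smul, inv_mul_cancel₀ hc, one_smul] at this

theorem Q16.mul {R : Type*} [Ring R] {g i j : R} (h : Q16 g i j) : Q16 g i (g * j) := by
  refine ⟨h.gg, h.ii, ?_, ?_, ?_⟩ <;>
    simp only [mul_assoc, neg_mul, mul_neg, neg_neg, h.gg, h.ii, h.jj, h.ji, h.gj, h.gi, h.gg',
      h.ii', h.jj', h.ji', h.gj', h.gi', mul_one]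

/-- the alternative produced by `Oc.exb` -/
def Alt {R : Type*} [Ring R] (g i j x : R) : Prop :=
  ∃ b : R, b * j = j * b ∧ b * g = -(g * b) ∧
    ((b = 0 ∧ x + x = -(1 + i + j + i * j)) ∨
      (b * b = -1 - 1 - 1 ∧ x + x + x + x = (1 + i + j + i * j) * (1 - b)))

theorem Alt.map {R R' : Type*} [Ring R] [Ring R'] (f : R →+* R') {g i j x : R} (h : Alt g i j x) :
    Alt (f g) (f i) (f j) (f x) := by
  obtain ⟨b, h1, h2, h3⟩ := h
  refine ⟨f b, by simpa using congrArg f h1, by simpa using congrArg f h2, h3.imp ?_ ?_⟩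
  · exact fun h => ⟨by simp [h.1], by simpa using congrArg f h.2⟩
  · exact fun h => ⟨by simpa using congrArg f h.1, by simpa using congrArg f h.2⟩

theorem Q16.map {R R' : Type*} [Ring R] [Ring R'] (f : R →+* R') {g i j : R} (h : Q16 g i j) :
    Q16 (f g) (f i) (f j) :=
  ⟨by simpa using congrArg f h.gg, by simpa using congrArg f h.ii, by simpa using congrArg f h.jj,
    by simpa using congrArg f h.ji, by simpa using congrArg f h.gj⟩

theorem inv4' [Nontrivial A] {g i j x x' : A} (h : Q16 g i j) (a : Alt g i j x)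
    (a' : Alt g i (g * j) x') :
    ∃ W : Submodule ℂ A, W ≠ ⊥ ∧ Module.finrank ℂ W ≤ 4 ∧ g ∈ stab W ∧ j ∈ stab W ∧ x ∈ stab W ∧
      x' ∈ stab W := by
  obtain ⟨b, bj, bg, hb⟩ := a
  obtain ⟨c, cj, cg, hc⟩ := a'
  have fin : ∀ (S : Subalgebra ℂ A) (j x b : A), g ∈ S → j ∈ S → b ∈ S →
      ((b = 0 ∧ x + x = -(1 + i + j + i * j)) ∨
        (b * b = -1 - 1 - 1 ∧ x + x + x + x = (1 + i + j + i * j) * (1 - b))) → x ∈ S := by
    intro S j x b hg hj hb h'
    have hi : i ∈ S := h.gg ▸ S.mul_mem hg hg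
    have hP := S.add_mem (S.add_mem (S.add_mem S.one_mem hi) hj) (S.mul_mem hi hj)
    rcases h' with h' | h'
    · exact mem_of_smul S 2 (by norm_num) (by rw [← h'.2]; module) (S.neg_mem hP)
    · exact mem_of_smul S 4 (by norm_num) (by rw [← h'.2]; module)
        (S.mul_mem hP (S.sub_mem S.one_mem hb))
  have z : ∀ a : A, Commute 0 a := Commute.zero_left
  suffices ∃ W : Submodule ℂ A, W ≠ ⊥ ∧ Module.finrank ℂ W ≤ 4 ∧ g ∈ stab W ∧ j ∈ stab W ∧
      b ∈ stab W ∧ c ∈ stab W by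
    obtain ⟨W, h1, h2, hg, hj, h3, h4⟩ := this
    exact ⟨W, h1, h2, hg, hj, fin _ _ _ _ hg hj h3 hb, fin _ _ _ _ hg (mul_mem hg hj) h4 hc⟩
  rcases hc with ⟨rfl, -⟩ | ⟨cc, -⟩
  · obtain ⟨W, h1, h2, hg, hj, h3, h4, -⟩ := inv4 h bj bg (z _) (z _) (z _) (z _) (z _) (z _) (z _)
    exact ⟨W, h1, h2, hg, hj, h3, h4⟩
  rcases hb with ⟨rfl, -⟩ | ⟨bb, -⟩
  · obtain ⟨W, h1, h2, hg, hj, h3, h4, -⟩ :=
      inv4 h.mul cj cg (z _) (z _) (z _) (z _) (z _) (z _) (z _)
    refine ⟨W, h1, h2, hg, ?_, h4, h3⟩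
    have := neg_mem (mul_mem (mul_mem hg hg) (mul_mem hg hj))
    rwa [h.gg, h.gg', h.ii', neg_neg] at this
  have bg' : ∀ w, b * (g * w) = -(g * (b * w)) := fun w => by
    rw [← mul_assoc, bg, neg_mul, mul_assoc]
  have cg' : ∀ w, c * (g * w) = -(g * (c * w)) := fun w => by
    rw [← mul_assoc, cg, neg_mul, mul_assoc]
  have bj' : ∀ w, b * (j * w) = j * (b * w) := fun w => by rw [← mul_assoc, bj, mul_assoc]
  have bi' : ∀ w, b * (i * w) = i * (b * w) := fun w => by
    rw [← h.gg', bg', bg', mul_neg, neg_neg, h.gg']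
  have ci' : ∀ w, c * (i * w) = i * (c * w) := fun w => by
    rw [← h.gg', cg', cg', mul_neg, neg_neg, h.gg']
  have cj1 : c * j = -(j * c) := by
    have := congrArg (fun w => i * (g * w)) cj
    simp only [cg', mul_assoc, mul_neg, h.gg', h.ii', neg_neg] at this
    exact this
  have cj' : ∀ w, c * (j * w) = -(j * (c * w)) := fun w => by
    rw [← mul_assoc, cj1, neg_mul, mul_assoc]
  have bb' : ∀ w, b * (b * w) = (-3 : ℂ) • w := fun w => by
    rw [← mul_assoc, bb]; simp only [sub_mul, neg_mul, one_mul]; module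
  have cc' : ∀ w, c * (c * w) = (-3 : ℂ) • w := fun w => by
    rw [← mul_assoc, cc]; simp only [sub_mul, neg_mul, one_mul]; module
  have b1 : b * b = (-3 : ℂ) • (1 : A) := by rw [← bb', mul_one]
  have c1 : c * c = (-3 : ℂ) • (1 : A) := by rw [← cc', mul_one]
  have bi : b * i = i * b := by simpa using bi' 1
  have ci : c * i = i * c := by simpa using ci' 1
  refine (inv4 (c := i * (b * c) + i * (c * b))
    (d := (g - i * g) * (i * (b * c) - i * (c * b))) h bj bg ?_ ?_ ?_ ?_ ?_ ?_ ?_).elim ?main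
  case main =>
    rintro W ⟨h1, h2, hg, hj, h3, h4, h5⟩
    refine ⟨W, h1, h2, hg, hj, h3, ?_⟩
    have hi : i ∈ stab W := h.gg ▸ mul_mem hg hg
    refine mem_of_smul _ 12 (by norm_num) ?_ (mul_mem (mul_mem h3 (add_mem (add_mem h4 h4)
      (mul_mem (sub_mem hg (mul_mem hi hg)) h5))) hi)
    simp only [mul_add, add_mul, mul_sub, sub_mul, mul_assoc, neg_mul, mul_neg, neg_neg, h.gg, h.ii,
      h.jj, h.ji, h.gj, h.gi, h.gg', h.ii', h.jj', h.ji', h.gj', h.gi', mul_one, bg, cg, bj, cj1,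
      bi, ci, bg', cg', bj', cj', bi', ci', bb', cc', b1, c1, mul_smul_comm, smul_mul_assoc]
    module
  all_goals
    show _ * _ = _ * _
    simp only [mul_add, add_mul, mul_sub, sub_mul, mul_assoc, neg_mul, mul_neg, neg_neg, h.gg, h.ii,
      h.jj, h.ji, h.gj, h.gi, h.gg', h.ii', h.jj', h.ji', h.gj', h.gi', mul_one, bg, cg, bj, cj1,
      bi, ci, bg', cg', bj', cj', bi', ci', bb', cc', b1, c1, mul_smul_comm, smul_mul_assoc]
    try module

theorem fin4 {G : Type*} [Group G] (σ : G →* A) {W : Submodule ℂ A}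
    (h4 : Module.finrank ℂ W ≤ 4) (hs : ∀ g, σ g ∈ stab W) {u : G} {p : ℕ} (hp : p.Prime)
    (hp' : ¬ p ∣ 5040) (hu : u ^ p = 1) (hw : ∃ w ∈ W, σ u * w ≠ w)
    (hc : ∀ m : Fin 5, ∃ h, u * h = h * u ^ ((m.val + 1) ^ 2)) : False := by
  obtain ⟨w0, hw0, hne⟩ := hw
  let W' : Submodule ℂ A := W.map (Algebra.lmul ℂ A (σ u - 1))
  have mem : ∀ v, v ∈ W' ↔ ∃ w ∈ W, (σ u - 1) * w = v := fun v => Submodule.mem_map
  obtain ⟨ζ, v, hv, v0, e⟩ := eig (W := W') (a := σ u)
    ((Submodule.ne_bot_iff _).2 ⟨_, (mem _).2 ⟨w0, hw0, rfl⟩, by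
      rw [sub_mul, one_mul]; exact sub_ne_zero.2 hne⟩) (fun v hv => by
      obtain ⟨w, hw, rfl⟩ := (mem v).1 hv
      exact (mem _).2 ⟨σ u * w, hs u w hw, by simp [sub_mul, mul_sub]⟩)
  obtain ⟨w, hw, ew⟩ := (mem v).1 hv
  have vW : v ∈ W := ew ▸ (sub_mem (hs u) (one_mem _)) w hw
  have ep : ∀ n : ℕ, σ u ^ n * v = ζ ^ n • v := by
    intro n
    induction n with
    | zero => simp
    | succ n ih => rw [pow_succ, mul_assoc, e, mul_smul_comm, ih, smul_smul, pow_succ']
  have z1 : ζ ^ p = 1 := by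
    have := ep p
    rw [← map_pow, hu, map_one, one_mul] at this
    by_contra hne
    exact v0 ((smul_eq_zero.1 (show (ζ ^ p - 1) • v = 0 by
      rw [sub_smul, ← this, one_smul, sub_self])).resolve_left (sub_ne_zero.2 hne))
  have z2 : ζ ≠ 1 := by
    rintro rfl
    have := congrArg (· * w) (geom_sum_mul (σ u) p)
    simp only [mul_assoc, ew, ← map_pow, hu, map_one, sub_self, zero_mul, Finset.sum_mul] at this
    simp only [map_pow, ep, one_pow, one_smul, Finset.sum_const, Finset.card_range,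
      ← Nat.cast_smul_eq_nsmul ℂ, smul_eq_zero, Nat.cast_eq_zero] at this
    exact this.elim hp.ne_zero v0
  have : Fact p.Prime := ⟨hp⟩
  have oz : orderOf ζ = p := orderOf_eq_prime z1 z2
  choose h hh using hc
  have li := Module.End.eigenvectors_linearIndependent' (Algebra.lmul ℂ A (σ u))
    (fun m : Fin 5 => ζ ^ ((m.val + 1) ^ 2)) (by
      intro a b hab
      have : IsOfFinOrder ζ := isOfFinOrder_iff_pow_eq_one.2 ⟨p, hp.pos, z1⟩
      have h1 := this.pow_eq_pow_iff_modEq.1 hab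
      rw [oz, Nat.modEq_iff_dvd] at h1
      by_contra hne
      refine hp' (Int.natCast_dvd_natCast.1 (h1.trans ?_))
      fin_cases a <;> fin_cases b <;> simp at hne ⊢)
    (fun m => σ (h m) * v) (fun m => by
      refine ⟨Module.End.mem_eigenspace_iff.2 ?_, fun h0 => v0 ?_⟩
      · show σ u * (σ (h m) * v) = _
        rw [← mul_assoc, ← map_mul, hh, map_mul, mul_assoc, map_pow, ep, mul_smul_comm]
      · have := congrArg (σ (h m)⁻¹ * ·) h0
        simpa [← mul_assoc, ← map_mul] using this)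
  have li' : LinearIndependent ℂ fun m => (⟨σ (h m) * v, hs _ v vW⟩ : W) :=
    LinearIndependent.of_comp W.subtype li
  have := li'.fintype_card_le_finrank
  simp at this
  omega

end Cfsg.Agent.DR.E
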