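import Cfsg.Agent.DR.Stmt
import Cfsg.Agent.H7.CyclicOdd

/-! Idempotents in `Ok` rings. -/

set_option autoImplicit false
set_option linter.unusedSectionVars false
set_option linter.unusedVariables false
open Subgroup Finset

namespace Cfsg.Agent.DR

universe u v

theorem okMat (D : Type*) [DivisionRing D] [CharZero D] : Ok (Matrix (Fin 2) (Fin 2) D) := by
  refine ⟨fun a b c ha hb hc ab ba ac ca bc cb => ?_, fun b => ?_⟩
  · by_contra! hh
    have row : ∀ a : Matrix (Fin 2) (Fin 2) D, a ≠ 0 → ∃ i, a i ≠ 0 := fun a h => by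
      by_contra! h2; exact h (funext h2)
    obtain ⟨i, hi⟩ := row a hh.1
    obtain ⟨j, hj⟩ := row b hh.2.1
    obtain ⟨k, hk⟩ := row c hh.2.2
    have vm : ∀ (x y : Matrix (Fin 2) (Fin 2) D) i, Matrix.vecMul (x i) y = (x * y) i :=
      fun x y i => rfl
    have li : LinearIndependent D ![a i, b j, c k] := by
      rw [Fintype.linearIndependent_iff]
      intro g hg
      rw [Fin.sum_univ_three] at hg
      have k := fun y : Matrix (Fin 2) (Fin 2) D => congrArg (fun v => Matrix.vecMul v y) hg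
      have h1 := k a
      have h2 := k b
      have h3 := k c
      simp only [Matrix.add_vecMul, Matrix.smul_vecMul, Matrix.cons_val, vm, ha, hb, hc, ab, ba, ac,
        ca, bc, cb, Matrix.zero_vecMul] at h1 h2 h3
      have z : ∀ i, (0 : Matrix (Fin 2) (Fin 2) D) i = 0 := fun _ => rfl
      simp only [z, smul_zero, add_zero, zero_add, smul_eq_zero, hi, hj, hk, or_false] at h1 h2 h3
      intro i; fin_cases i <;> assumption
    have := li.fintype_card_le_finrank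
    simp at this
  · obtain ⟨e, he, h⟩ := IsSemisimpleRing.ideal_eq_span_idempotent (Ideal.span {b})
    obtain ⟨z, hz⟩ := Ideal.mem_span_singleton'.1 (h ▸ Ideal.mem_span_singleton_self e)
    obtain ⟨w, hw⟩ := Ideal.mem_span_singleton'.1 (h ▸ Ideal.mem_span_singleton_self b)
    exact ⟨z, by rw [mul_assoc, hz, ← hw, mul_assoc, he.eq]⟩

variable {R : Type v} [Ring R] [Algebra ℚ R] {e f : R}

theorem Ok.under (h : Ok R) (he : e * e = e) (e1 : e ≠ 1) (hf : f * f = f) (ef : e * f = f)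
    (fe : f * e = f) : f = 0 ∨ f = e := by
  rcases h.o3 f (e - f) (1 - e) hf (by simp [mul_sub, sub_mul, he, hf, ef, fe])
    (by simp [mul_sub, sub_mul, he]) (by simp [mul_sub, hf, fe]) (by simp [sub_mul, hf, ef])
    (by simp [mul_sub, fe]) (by simp [sub_mul, ef]) (by simp [mul_sub, sub_mul, he, fe])
    (by simp [mul_sub, sub_mul, he, ef]) with a | a | a
  exacts [.inl a, .inr (sub_eq_zero.1 a).symm, absurd (sub_eq_zero.1 a).symm e1]

theorem idem1 (he : e * e = e) : (1 - e) * (1 - e) = 1 - e := by simp [mul_sub, sub_mul, he]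

theorem Ok.under' (h : Ok R) (he : e * e = e) (e1 : e ≠ 1) (hf : f * f = f) (c : e * f = f * e) :
    e * f = 0 ∨ e * f = e :=
  h.under he e1 (by rw [mul_assoc, ← mul_assoc f, ← c, mul_assoc, hf, ← mul_assoc, he])
    (by rw [← mul_assoc, he]) (by rw [mul_assoc, ← c, ← mul_assoc, he])

theorem Ok.comm (h : Ok R) (he : e * e = e) (hf : f * f = f) (c : e * f = f * e) (e0 : e ≠ 0)
    (e1 : e ≠ 1) (f0 : f ≠ 0) (f1 : f ≠ 1) : f = e ∨ f = 1 - e := by
  have s : f = e * f + (1 - e) * f := by noncomm_ring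
  rcases h.under' he e1 hf c with a | a <;>
    rcases h.under' (idem1 he) (by simpa using e0) hf (by simp [mul_sub, sub_mul, c]) with b | b <;>
    rw [a, b] at s
  exacts [absurd (by simpa using s) f0, .inr (by simpa using s), .inl (by simpa using s),
    absurd (by simpa using s) f1]

theorem qs0 {q : ℚ} (hq : q ≠ 0) {a : R} (h : q • a = 0) : a = 0 := by
  rw [← one_smul ℚ a, ← inv_mul_cancel₀ hq, mul_smul, h, smul_zero]

/-- the idempotent of the `-1` eigenspace -/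
noncomputable def ne (a : R) : R := (1 / 2 : ℚ) • (1 - a)

theorem ne_idem {a : R} (h : a * a = 1) : ne a * ne a = ne a := by
  rw [ne, smul_mul_smul_comm, show (1 - a) * (1 - a) = (2 : ℚ) • (1 - a) by
    rw [two_smul]; simp [mul_sub, sub_mul, h]; abel, smul_smul]; norm_num

theorem eq_ne (a : R) : a = 1 - (2 : ℚ) • ne a := by rw [ne, smul_smul]; simp

theorem ne0 {a : R} (h : a ≠ 1) : ne a ≠ 0 := fun e => h (by rw [eq_ne a, e]; simp)
theorem ne1 {a : R} (h : a ≠ -1) : ne a ≠ 1 := fun e => h (by rw [eq_ne a, e, two_smul]; simp)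

theorem ne_comm {a b : R} (h : a * b = b * a) : ne a * b = b * ne a := by
  simp [ne, mul_sub, sub_mul, h]

theorem comm_of_ne {a b : R} (h : ne a * b = b * ne a) : a * b = b * a := by
  rw [eq_ne a]; simp [mul_sub, sub_mul, h]

theorem Ok.a1' (h : Ok R) {a b : R} (ha : a * a = 1) (hb : b * b = 1) (c : a * b = b * a)
    (a1 : a ≠ 1) (a2 : a ≠ -1) (b1 : b ≠ 1) (b2 : b ≠ -1) : b = a ∨ b = -a := by
  rcases h.comm (ne_idem ha) (ne_idem hb) (ne_comm (ne_comm c.symm).symm) (ne0 a1) (ne1 a2) (ne0 b1)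
    (ne1 b2) with e | e
  · exact .inl (by rw [eq_ne b, e, ← eq_ne])
  · exact .inr (by rw [eq_ne b, e, eq_ne a, ← eq_ne, smul_sub, two_smul, ne, smul_smul]; simp)

/-- average over the powers -/
noncomputable def av (a : R) (n : ℕ) : R := (1 / n : ℚ) • ∑ k ∈ range n, a ^ k

theorem mul_av {a : R} {n : ℕ} (h : a ^ n = 1) : a * av a n = av a n := by
  have := mul_geom_sum a n
  rw [h, sub_self, sub_mul, one_mul, sub_eq_zero] at this
  rw [av, mul_smul_comm, this]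

theorem av_comm {a b : R} (n : ℕ) (h : a * b = b * a) : av a n * b = b * av a n := by
  rw [av, mul_smul_comm, smul_mul_assoc, (Commute.sum_left _ _ _ fun k _ =>
    (Commute.pow_left h k : _)).eq]

theorem av_idem {a : R} {n : ℕ} (hn : n ≠ 0) (h : a ^ n = 1) : av a n * av a n = av a n := by
  have : ∀ k, a ^ k * av a n = av a n := fun k => by
    induction k with
    | zero => simp
    | succ k ih => rw [pow_succ, mul_assoc, mul_av h, ih]
  nth_rw 1 [av]
  rw [smul_mul_assoc, sum_mul, sum_congr rfl fun k _ => this k, sum_const, card_range,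
    ← Nat.cast_smul_eq_nsmul ℚ, smul_smul, one_div_mul_cancel (by exact_mod_cast hn), one_smul]

theorem av_ne_one {a : R} {n : ℕ} (h : a ^ n = 1) (a1 : a ≠ 1) : av a n ≠ 1 := fun e =>
  a1 (by simpa [e] using mul_av h)

theorem conj_av {a b g : R} (n : ℕ) (h : g * a = b * g) : g * av a n = av b n * g := by
  rw [av, av, mul_smul_comm, smul_mul_assoc, mul_sum, sum_mul]
  exact congrArg _ (sum_congr rfl fun k _ => (SemiconjBy.pow_right h k : _))

variable {G : Type u} [Group G] (ρ : G →* R)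

theorem corner (h : Ok R) (he : e * e = e) (e1 : e ≠ 1) (e0 : e ≠ 0)
    (c : ∀ g, e * ρ g = ρ g * e) : ∃ (R2 : Type v) (_ : Ring R2) (_ : Algebra ℚ R2) (σ : G →* R2),
      Ok R2 ∧ Nontrivial R2 ∧ (∀ f : R2, f * f = f → f = 0 ∨ f = 1) ∧
        ∀ g, σ g = 1 ↔ e * ρ g = e := by
  have id : IsIdempotentElem e := he
  have mm : ∀ {r : R}, r ∈ Subsemigroup.corner e ↔ e * r = r ∧ r * e = r :=
    Subsemigroup.mem_corner_iff id
  let φ : ℚ →+* id.Corner :=
    { toFun := fun q => ⟨q • e, mm.2 ⟨by simp [he], by simp [he]⟩⟩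
      map_one' := Subtype.ext (one_smul _ _)
      map_mul' := fun a b => Subtype.ext (by
        change (a * b) • e = a • e * b • e
        rw [smul_mul_smul_comm, he])
      map_zero' := Subtype.ext (zero_smul _ _)
      map_add' := fun a b => Subtype.ext (add_smul _ _ _) }
  let _ : Algebra ℚ id.Corner := φ.toAlgebra' fun q x => Subtype.ext (by
    change q • e * x.1 = x.1 * q • e
    rw [smul_mul_assoc, mul_smul_comm, (mm.1 x.2).1, (mm.1 x.2).2])
  let σ : G →* id.Corner :=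
    { toFun := fun g => ⟨e * ρ g, mm.2 ⟨by rw [← mul_assoc, he], by
        rw [mul_assoc, ← c, ← mul_assoc, he]⟩⟩
      map_one' := Subtype.ext (by simp; rfl)
      map_mul' := fun a b => Subtype.ext (by
        change e * ρ (a * b) = e * ρ a * (e * ρ b)
        rw [map_mul, mul_assoc, ← mul_assoc (ρ a), ← c, ← mul_assoc, ← mul_assoc, ← mul_assoc, he]) }
  have tr : ∀ f : id.Corner, f * f = f → f = 0 ∨ f = 1 := fun f hf =>
    (h.under he e1 (congrArg Subtype.val hf) (mm.1 f.2).1 (mm.1 f.2).2).imp Subtype.ext Subtype.ext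
  refine ⟨id.Corner, inferInstance, inferInstance, σ, ⟨fun a b c ha hb _ ab _ _ _ _ _ => ?_,
    fun b => ?_⟩, ⟨1, 0, fun a => e0 (congrArg Subtype.val a)⟩, tr, fun g => Subtype.ext_iff⟩
  · rcases tr a ha with a0 | rfl
    · exact .inl a0
    · exact .inr (.inl (by rwa [one_mul] at ab))
  · obtain ⟨z, hz⟩ := h.reg b.1
    refine ⟨⟨_, z, rfl⟩, Subtype.ext ?_⟩
    change b.1 * (e * z * e) * b.1 = b.1
    rw [← mul_assoc, ← mul_assoc, (mm.1 b.2).2, mul_assoc _ e, (mm.1 b.2).1, hz]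

theorem Ok.a1 (h : Ok R) {t u : G} (t2 : t * t = 1) (u2 : u * u = 1) (c : t * u = u * t)
    (a1 : ρ t ≠ 1) (a2 : ρ t ≠ -1) (b1 : ρ u ≠ 1) (b2 : ρ u ≠ -1) : ρ u = ρ t ∨ ρ u = -ρ t :=
  h.a1' (by rw [← map_mul, t2, map_one]) (by rw [← map_mul, u2, map_one])
    (by rw [← map_mul, c, map_mul]) a1 a2 b1 b2

/-- the partition identity -/
theorem ex_av [Nontrivial R] [Finite G] {p : ℕ} (hp : p.Prime) {A : Subgroup G}
    (c : ∀ a ∈ A, ∀ b ∈ A, a * b = b * a) (ex : ∀ a ∈ A, a ^ p = 1) (nc : ¬ IsCyclic A) :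
    ∃ a ∈ A, a ≠ 1 ∧ av (ρ a) p ≠ 0 := by
  by_contra! hh
  have := Fact.mk hp
  have z : ∀ a ∈ A, a ≠ 1 → ∑ k ∈ range p, ρ a ^ k = 0 := fun a m a1 =>
    qs0 (by simpa using hp.ne_zero) (hh a m a1)
  obtain ⟨b, bA, b1⟩ : ∃ b ∈ A, b ≠ 1 := by
    by_contra! h; exact nc ((eq_bot_iff_forall _).2 h ▸ inferInstance)
  obtain ⟨a, aA, ab⟩ : ∃ a ∈ A, a ∉ zpowers b := by
    by_contra! h
    exact nc (le_antisymm h (zpowers_le.2 bA) ▸ inferInstance)
  have h1 : ∑ i ∈ range p, ∑ k ∈ range p, ρ (a * b ^ i) ^ k = 0 := sum_eq_zero fun i _ =>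
    z _ (A.mul_mem aA (A.pow_mem bA i)) fun e =>
      ab (eq_inv_of_mul_eq_one_left e ▸ inv_mem (pow_mem (mem_zpowers b) i))
  rw [sum_comm, sum_eq_single_of_mem 0 (mem_range.2 hp.pos) fun k hk k0 => ?_] at h1
  · simp only [pow_zero, sum_const, card_range] at h1
    rw [← Nat.cast_smul_eq_nsmul ℚ] at h1
    exact one_ne_zero (qs0 (by simpa using hp.ne_zero) h1)
  · have : ∀ i, ρ (a * b ^ i) ^ k = ρ a ^ k * ρ (b ^ k) ^ i := fun i => by
      rw [← map_pow, (Commute.pow_right (c a aA b bA) i).mul_pow, ← pow_mul, mul_comm i, pow_mul,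
        map_mul, map_pow, map_pow]
    rw [sum_congr rfl fun i _ => this i, ← mul_sum, z _ (A.pow_mem bA k), mul_zero]
    rw [Ne, ← orderOf_dvd_iff_pow_eq_one, orderOf_eq_prime (ex b bA) b1]
    exact fun d => absurd (Nat.le_of_dvd (Nat.pos_of_ne_zero k0) d) (not_le.2 (mem_range.1 hk))

theorem ntriv (hρ : Function.Injective ρ) {a : G} (a1 : a ≠ 1) : Nontrivial R :=
  ⟨ρ a, ρ 1, fun e => a1 (hρ e)⟩

theorem Ok.r4 [Finite G] (h : Ok R) (hρ : Function.Injective ρ) {p : ℕ} (hp : p.Prime)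
    {A : Subgroup G} (c : ∀ a ∈ A, ∀ b ∈ A, a * b = b * a) (ex : ∀ a ∈ A, a ^ p = 1)
    (nc : ¬ IsCyclic A) : ∃ e : R, e * e = e ∧ e ≠ 0 ∧ e ≠ 1 ∧
      ∀ g : G, (∀ a ∈ A, g * a * g⁻¹ ∈ A) → ρ g * e = e * ρ g ∨ ρ g * e = (1 - e) * ρ g := by
  obtain ⟨b, bA, b1⟩ : ∃ b ∈ A, b ≠ 1 := by
    by_contra! h; exact nc ((eq_bot_iff_forall _).2 h ▸ inferInstance)
  have := ntriv ρ hρ b1
  obtain ⟨a, aA, a1, a0⟩ := ex_av ρ hp c ex nc
  have pw : ∀ a ∈ A, ρ a ^ p = 1 := fun a m => by rw [← map_pow, ex a m, map_one]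
  have n1 : ∀ a ∈ A, a ≠ 1 → av (ρ a) p ≠ 1 := fun a m a1 =>
    av_ne_one (pw a m) fun e => a1 (hρ (e.trans (map_one ρ).symm))
  refine ⟨_, av_idem hp.ne_zero (pw a aA), a0, n1 a aA a1, fun g hg => ?_⟩
  have e := conj_av (a := ρ a) (b := ρ (g * a * g⁻¹)) (g := ρ g) p (by simp [← map_mul])
  rw [e]
  rcases h.comm (av_idem hp.ne_zero (pw a aA)) (av_idem hp.ne_zero (pw _ (hg a aA)))
    (av_comm _ (av_comm _ (by rw [← map_mul, c _ (hg a aA) a aA, map_mul])).symm) a0 (n1 a aA a1)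
    (fun z => a0 (by
      rw [z, zero_mul] at e
      rw [← one_mul (av _ _), ← map_one ρ, ← inv_mul_cancel g, map_mul, mul_assoc, e, mul_zero]))
    (n1 _ (hg a aA) fun z => a1 (by simpa [mul_assoc] using congrArg (fun x => g⁻¹ * x * g) z)) with f | f <;>
    rw [f]
  exacts [.inl rfl, .inr rfl]

theorem Ok.r4n [Finite G] (h : Ok R) (hρ : Function.Injective ρ) {p : ℕ} (hp : p.Prime)
    (A : Subgroup G) [hA : A.Normal] (c : IsMulCommutative A) (ex : ∀ a ∈ A, a ^ p = 1)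
    (nc : ¬ IsCyclic A) : ∃ e : R, e * e = e ∧ e ≠ 0 ∧ e ≠ 1 ∧
      ∀ g : G, ρ g * e = e * ρ g ∨ ρ g * e = (1 - e) * ρ g := by
  obtain ⟨e, h1, h2, h3, h4⟩ := h.r4 ρ hρ hp
    (fun a ha b hb => congrArg Subtype.val (c.is_comm.comm ⟨a, ha⟩ ⟨b, hb⟩)) ex nc
  exact ⟨e, h1, h2, h3, fun g => h4 g fun a ha => hA.conj_mem a ha g⟩

/-- with trivial idempotents only, elementary abelian subgroups are cyclic -/
theorem cyc_of_triv [Finite G] (tr : ∀ f : R, f * f = f → f = 0 ∨ f = 1)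
    (hρ : Function.Injective ρ) {p : ℕ} (hp : p.Prime) {A : Subgroup G}
    (c : ∀ a ∈ A, ∀ b ∈ A, a * b = b * a) (ex : ∀ a ∈ A, a ^ p = 1) : IsCyclic A := by
  by_contra nc
  obtain ⟨b, bA, b1⟩ : ∃ b ∈ A, b ≠ 1 := by
    by_contra! h; exact nc ((eq_bot_iff_forall _).2 h ▸ inferInstance)
  have := ntriv ρ hρ b1
  obtain ⟨a, aA, a1, a0⟩ := ex_av ρ hp c ex nc
  have pw : ρ a ^ p = 1 := by rw [← map_pow, ex a aA, map_one]
  exact (tr _ (av_idem hp.ne_zero pw)).elim a0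
    (av_ne_one pw fun e => a1 (hρ (e.trans (map_one ρ).symm)))

theorem not_cyc {p : ℕ} (hp : p.Prime) {A : Subgroup G} (el : IsElementaryAbelian p A)
    (c : Nat.card A = p ^ 2) : ¬ IsCyclic A := fun cy => by
  obtain ⟨g, hg⟩ := cy.exists_ofOrder_eq_natCard
  have : orderOf g ∣ p := orderOf_dvd_of_pow_eq_one (Subtype.ext (el.2 g g.2))
  rw [hg, c] at this
  have := Nat.le_of_dvd hp.pos this
  nlinarith [hp.two_le]

theorem comm_of_triv [Finite G] (tr : ∀ f : R, f * f = f → f = 0 ∨ f = 1) {p : ℕ} (hp : p.Prime)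
    (p2 : p ≠ 2) (hG : IsPGroup p G) (x y : G) : ρ (x * y * x⁻¹ * y⁻¹) = 1 := by
  have := Fact.mk hp
  let σ := QuotientGroup.kerLift ρ.toHomUnits
  have cy : IsCyclic (⊤ : Subgroup (G ⧸ ρ.toHomUnits.ker)) := by
    by_contra nc
    obtain ⟨A, -, -, el, c⟩ := H7.exists_normal_ea_of_not_isCyclic p2 (hG.to_quotient _) ⊤ nc
    exact not_cyc hp el c (cyc_of_triv ((Units.coeHom R).comp σ) tr
      (Units.val_injective.comp (QuotientGroup.kerLift_injective _)) hp
      (fun a ha b hb => congrArg Subtype.val (el.1.is_comm.comm ⟨a, ha⟩ ⟨b, hb⟩)) el.2)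
  have cy := topEquiv.isCyclic.1 cy
  have : x * y * x⁻¹ * y⁻¹ ∈ ρ.toHomUnits.ker := by
    rw [← QuotientGroup.eq_one_iff]
    let _ := cy.commGroup
    simp [mul_comm]
  exact congrArg Units.val this

theorem fix_of_odd (he : e * e = e) (e0 : e ≠ 0) {g : R} {m : ℕ} (hm : Odd m) (gm : g ^ m = 1)
    (h : g * e = (1 - e) * g) : False := by
  obtain ⟨k, rfl⟩ := hm
  have h2 : g * g * e = e * (g * g) := by
    rw [mul_assoc, h, ← mul_assoc, mul_sub, h]; noncomm_ring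
  have h3 : (g * g) ^ k * e = e * (g * g) ^ k := Commute.pow_left h2 k
  have h4 : g ^ (2 * k + 1) * e = (1 - e) * g ^ (2 * k + 1) := by
    rw [pow_succ, pow_mul, pow_two, mul_assoc, h, ← mul_assoc, mul_sub, h3]; noncomm_ring
  rw [gm, one_mul, mul_one] at h4
  exact e0 (by rw [← he]; nth_rw 2 [h4]; rw [mul_sub, he, mul_one, sub_self])

theorem Ok.r5 [Finite G] (h : Ok R) (hρ : Function.Injective ρ) {p : ℕ} (hp : p.Prime) (p2 : p ≠ 2)
    {P : Subgroup G} (hP : IsPGroup p P) : IsMulCommutative P := by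
  have := Fact.mk hp
  by_cases cy : IsCyclic (⊤ : Subgroup P)
  · exact ⟨⟨(topEquiv.isCyclic.1 cy).commGroup.mul_comm⟩⟩
  obtain ⟨A, -, _, el, c⟩ := H7.exists_normal_ea_of_not_isCyclic p2 hP ⊤ cy
  obtain ⟨e, he, e0, e1, k⟩ := h.r4n (ρ.comp P.subtype) (hρ.comp P.subtype_injective) hp A el.1 el.2
    (not_cyc hp el c)
  have k : ∀ g, e * (ρ.comp P.subtype) g = (ρ.comp P.subtype) g * e := fun g =>
    ((k g).resolve_right fun z => by
      obtain ⟨n, hn⟩ := hP g
      exact fix_of_odd he e0 ((hp.odd_of_ne_two p2).pow) (by rw [← map_pow, hn, map_one]) z).symm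
  obtain ⟨R1, _, _, σ1, -, -, t1, s1⟩ := corner _ h he e1 e0 k
  obtain ⟨R2, _, _, σ2, -, -, t2, s2⟩ := corner (ρ.comp P.subtype) h (idem1 he) (by simpa using e0)
    (fun z => e1 (sub_eq_zero.1 z).symm) fun g => by rw [sub_mul, mul_sub, k, one_mul, mul_one]
  refine ⟨⟨fun x y => ?_⟩⟩
  have a := (s1 _).1 (comm_of_triv σ1 t1 hp p2 hP x y)
  have b := (s2 _).1 (comm_of_triv σ2 t2 hp p2 hP x y)
  rw [sub_mul, a, one_mul, sub_left_inj, ← map_one (ρ.comp P.subtype)] at b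
  have := (hρ.comp P.subtype_injective) b
  rwa [mul_inv_eq_one, mul_inv_eq_iff_eq_mul] at this

theorem odd_sum {r : R} (k : ℕ) :
    (1 + r) * ∑ i ∈ range k, r ^ (2 * i + 1) = ∑ i ∈ range (2 * k + 1), r ^ i - 1 := by
  induction k with
  | zero => simp
  | succ k ih =>
    rw [sum_range_succ, mul_add, ih, show 2 * (k + 1) + 1 = 2 * k + 1 + 1 + 1 by ring,
      sum_range_succ _ (2 * k + 1 + 1), sum_range_succ _ (2 * k + 1), pow_succ' r (2 * k + 1)]
    noncomm_ring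

end Cfsg.Agent.DR
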