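import Cfsg.Agent.DR.R1

/-! A reflection outside `O₂` is not a square. -/

set_option autoImplicit false
set_option linter.unusedSectionVars false
set_option linter.unusedVariables false
open Subgroup Finset

namespace Cfsg.Agent.DR

universe u v

variable {R : Type v} [Ring R] [Algebra ℚ R] {G : Type u} [Group G] (ρ : G →* R)

theorem Ok.a2 [Finite G] (h : Ok R) (hρ : Function.Injective ρ) {t u x : G} (t2 : t * t = 1)
    (u2 : u * u = 1) (ho : Odd (orderOf (t * u))) (h1 : t * u ≠ 1) (hx : x * x = t) : False := by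
  have ti : t⁻¹ = t := inv_eq_of_mul_eq_one_right t2
  have ri : (t * u)⁻¹ = u * t := by rw [mul_inv_rev, ti, inv_eq_of_mul_eq_one_right u2]
  have nc : t * u ≠ u * t := fun e => h1 (orderOf_eq_one_iff.1 (Nat.eq_one_of_dvd_coprimes
    (Nat.coprime_two_right.2 ho) dvd_rfl (orderOf_dvd_of_pow_eq_one (by
      rw [pow_two]; nth_rw 2 [e]; rw [← ri, mul_inv_cancel]))))
  have nc' : ρ t * ρ u ≠ ρ u * ρ t := fun e => nc (hρ (by rwa [map_mul, map_mul]))
  have T2 : ρ t * ρ t = 1 := by rw [← map_mul, t2, map_one]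
  have U2 : ρ u * ρ u = 1 := by rw [← map_mul, u2, map_one]
  have X2 : ρ x * ρ x = ρ t := by rw [← map_mul, hx]
  have he := ne_idem T2
  have e0 : ne (ρ t) ≠ 0 := ne0 fun e => nc' (by simp [e])
  have e1 : ne (ρ t) ≠ 1 := ne1 fun e => nc' (by simp [e])
  obtain ⟨k, hk⟩ := ho
  have rp : ρ (t * u) ^ (2 * k + 1) = 1 := by rw [← map_pow, ← hk, pow_orderOf_eq_one, map_one]
  have rp' : ρ (u * t) ^ (2 * k + 1) = 1 := by
    rw [← map_pow, ← hk, ← ri, inv_pow, pow_orderOf_eq_one, inv_one, map_one]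
  have fe : av (ρ (u * t)) (2 * k + 1) = av (ρ (t * u)) (2 * k + 1) := by
    rw [av, av, ← sum_range_reflect, sum_range_succ, sum_range_succ']
    congr 2
    · refine sum_congr rfl fun i hi => ?_
      have := mem_range.1 hi
      rw [← map_pow, ← map_pow, ← ri, inv_pow, inv_eq_of_mul_eq_one_right]
      rw [← pow_add, show 2 * k + 1 - 1 - i + (i + 1) = 2 * k + 1 by omega, ← hk, pow_orderOf_eq_one]
    · simp
  have f0 : av (ρ (t * u)) (2 * k + 1) = 0 := by
    by_contra f0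
    have c : ρ t * av (ρ (t * u)) (2 * k + 1) = av (ρ (t * u)) (2 * k + 1) * ρ t := by
      rw [conj_av (b := ρ (u * t)) _ (by
        rw [← map_mul, ← map_mul, ← mul_assoc, t2, mul_assoc, t2, one_mul, mul_one]), fe]
    have c2 := (av_comm (2 * k + 1) (rfl : ρ (t * u) * ρ (t * u) = _))
    have c3 : ne (ρ t) * ρ (t * u) = ρ (t * u) * ne (ρ t) := by
      rcases h.comm he (av_idem (by omega) rp) (ne_comm c) e0 e1 f0
        (av_ne_one rp fun e => h1 (hρ (e.trans (map_one ρ).symm))) with e | e <;> rw [e] at c2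
      · exact c2
      · simpa [mul_sub, sub_mul] using c2
    have := hρ ((map_mul ρ _ _).trans ((comm_of_ne c3).trans (map_mul ρ _ _).symm))
    rw [mul_assoc, mul_right_inj] at this
    exact nc this
  have inv : ∀ r : R, av r (2 * k + 1) = 0 →
      (1 + r) * (-∑ i ∈ range k, r ^ (2 * i + 1)) = 1 := fun r e => by
    rw [mul_neg, odd_sum, qs0 (by positivity) e]; simp
  have cx : ne (ρ t) * ρ x = ρ x * ne (ρ t) := ne_comm (by rw [← X2, mul_assoc])
  have et : (1 - ne (ρ t)) * ρ t = 1 - ne (ρ t) := by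
    nth_rw 2 [eq_ne (ρ t)]; rw [mul_sub, mul_smul_comm, sub_mul 1 _ (ne _), he]; simp
  obtain ⟨y, hy, y1, y2⟩ : ∃ y, (y = ρ x ∨ y = -ρ x) ∧ y * y = ρ t ∧
      (1 - ne (ρ t)) * y = 1 - ne (ρ t) := by
    have f2 := idem1 he
    have c : (1 - ne (ρ t)) * ρ x = ρ x * (1 - ne (ρ t)) := by rw [mul_sub, sub_mul, cx]; simp
    have f1 : 1 - ne (ρ t) ≠ 1 := by simpa using e0
    generalize 1 - ne (ρ t) = f at f1 f2 c et
    have c2 : ne (ρ x) * f = f * ne (ρ x) := ne_comm c.symm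
    rcases h.under (f := f * ne (ρ x)) f2 f1 (by
      rw [mul_assoc, ← mul_assoc _ f, c2, mul_assoc, ← mul_assoc, f2, ne, smul_mul_smul_comm,
        mul_smul_comm, mul_smul_comm, show f * ((1 - ρ x) * (1 - ρ x)) = (2 : ℚ) • (f * (1 - ρ x)) by
          rw [two_smul]; simp [mul_sub, sub_mul, X2, et]; abel, smul_smul]
      norm_num) (by rw [← mul_assoc, f2]) (by rw [mul_assoc, c2, ← mul_assoc, f2]) with a | a
    · exact ⟨_, .inl rfl, X2, by rw [eq_ne (ρ x), mul_sub, mul_smul_comm, a]; simp⟩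
    · exact ⟨_, .inr rfl, by simp [X2], by
        rw [eq_ne (ρ x), mul_neg, mul_sub, mul_smul_comm, a, two_smul]; simp⟩
  have cy : ne (ρ t) * y = y * ne (ρ t) := by rcases hy with rfl | rfl <;> simp [cx]
  have ea : ne (ρ t) * (y - 1) = y - 1 := by
    rw [sub_mul, one_mul] at y2
    rw [mul_sub, mul_one, sub_eq_sub_iff_sub_eq_sub, ← neg_sub, y2]; simp
  have ae : (y - 1) * ne (ρ t) = y - 1 := by
    rw [sub_mul, ← cy, one_mul]; rwa [mul_sub, mul_one] at ea
  let O : Submodule ℤ R := Submodule.span ℤ (Set.range ρ)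
  have mO : ∀ a ∈ O, ∀ b ∈ O, a * b ∈ O := fun a ha b hb => by
    have := Submodule.mul_mem_mul ha hb
    rw [Submodule.span_mul_span] at this
    refine Submodule.span_mono ?_ this
    rintro _ ⟨_, ⟨g, rfl⟩, _, ⟨g', rfl⟩, rfl⟩
    exact ⟨g * g', map_mul _ _ _⟩
  have gO : ∀ g, ρ g ∈ O := fun g => Submodule.subset_span ⟨g, rfl⟩
  have oO : (1 : R) ∈ O := map_one ρ ▸ gO 1
  have aO : y - 1 ∈ O := O.sub_mem (by rcases hy with rfl | rfl; exacts [gO _, O.neg_mem (gO _)]) oO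
  obtain ⟨κ, κO, k1, k2⟩ : ∃ κ ∈ O, (2 + ρ t * ρ u + ρ u * ρ t) * κ = 1 ∧
      κ * (2 + ρ t * ρ u + ρ u * ρ t) = 1 := by
    have vO : ∀ g, -∑ i ∈ range k, ρ g ^ (2 * i + 1) ∈ O := fun g =>
      O.neg_mem (O.sum_mem fun i _ => map_pow ρ g _ ▸ gO _)
    have cv : ∀ r : R, Commute (1 + r) (-∑ i ∈ range k, r ^ (2 * i + 1)) := fun r =>
      (Commute.sum_right _ _ _ fun i _ => (Commute.one_left _).add_left (Commute.self_pow _ _)).neg_right
    have i1 := inv _ f0
    have i2 := inv _ (fe.trans f0)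
    have p1 : 2 + ρ t * ρ u + ρ u * ρ t = (1 + ρ (t * u)) * (1 + ρ (u * t)) := by
      rw [add_mul, mul_add, mul_add, ← map_mul ρ (t * u), ← ri, mul_inv_cancel, ri, map_one,
        map_mul, map_mul, ← one_add_one_eq_two]; noncomm_ring
    refine ⟨_, mO _ (vO (u * t)) _ (vO (t * u)), ?_, ?_⟩
    · rw [p1, mul_assoc, ← mul_assoc (1 + ρ (u * t)), i2, one_mul, i1]
    · rw [p1, mul_assoc, ← mul_assoc _ (1 + ρ (t * u)), ← (cv _).eq, i1, one_mul, ← (cv _).eq, i2]
  have TT : ∀ z, ρ t * (ρ t * z) = z := fun z => by rw [← mul_assoc, T2, one_mul]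
  have ck : κ * ne (ρ t) = ne (ρ t) * κ := by
    have : ρ t * (2 + ρ t * ρ u + ρ u * ρ t) = (2 + ρ t * ρ u + ρ u * ρ t) * ρ t := by
      simp only [mul_add, add_mul, mul_assoc, TT, T2]; noncomm_ring
    refine (ne_comm ?_).symm
    rw [← one_mul (ρ t * κ), ← k2, mul_assoc, ← mul_assoc _ (ρ t), ← this, mul_assoc, k1, mul_one]
  have eu : ne (ρ t) * (ρ u - 1) * ne (ρ t) =
      -((1 / 2 : ℚ) • (ne (ρ t) * (2 + ρ t * ρ u + ρ u * ρ t))) := by
    have : (1 - ρ t) * (ρ u - 1) * (1 - ρ t) = -((1 - ρ t) * (2 + ρ t * ρ u + ρ u * ρ t)) := by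
      rw [← one_add_one_eq_two]
      simp only [mul_add, mul_sub, sub_mul, mul_assoc, TT, T2, one_mul, mul_one]; noncomm_ring
    rw [ne, smul_mul_assoc, smul_mul_smul_comm, this, smul_mul_assoc, smul_smul, smul_neg]
  have yy : (y - 1) * (y - 1) = -((2 : ℚ) • (y - 1)) - (2 : ℚ) • ne (ρ t) := by
    rw [show (2 : ℚ) • ne (ρ t) = 1 - y * y by rw [y1]; nth_rw 2 [eq_ne (ρ t)]; simp, two_smul]
    noncomm_ring
  generalize ne (ρ t) = e at *
  generalize y - 1 = a at *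
  let I : Submodule ℤ R := O.map ((LinearMap.mulRight ℤ e).comp (LinearMap.mulLeft ℤ a))
  have mI : ∀ m, m ∈ I ↔ ∃ o ∈ O, a * o * e = m := fun m => Iff.rfl
  have mul : ∀ m ∈ I, ∀ m' ∈ I, m * m' ∈ I := by
    rintro _ ⟨o, ho, rfl⟩ _ ⟨o', ho', rfl⟩
    refine (mI _).2 ⟨o * a * o', mO _ (mO _ ho _ aO) _ ho', ?_⟩
    change _ = a * o * e * (a * o' * e)
    rw [show a * o * e * (a * o' * e) = a * o * (e * a) * o' * e by noncomm_ring, ea]; noncomm_ring
  have n1 : -((1 / 2 : ℚ) • a) ∈ I := (mI _).2 ⟨(ρ u - 1) * κ, mO _ (O.sub_mem (gO _) oO) _ κO, by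
    rw [← ae, show a * e * ((ρ u - 1) * κ) * e = a * (e * (ρ u - 1) * (κ * e)) by noncomm_ring, ck,
      ← mul_assoc _ e, eu, neg_mul, smul_mul_assoc, mul_assoc, k1, mul_one, mul_neg, mul_smul_comm]⟩
  have n2 : (1 / 2 : ℚ) • e ∈ I := by
    have := I.sub_mem n1 (mul _ n1 _ n1)
    rw [neg_mul_neg, smul_mul_smul_comm, yy] at this
    convert this using 1
    module
  obtain ⟨r, hr, r0⟩ := Submodule.exists_sub_one_mem_and_smul_eq_zero_of_fg_of_le_smul
    (Ideal.span {(2 : ℤ)}) I (Submodule.FG.map _ (Submodule.fg_span (Set.finite_range ρ)))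
    fun m hm => by
      have := Submodule.smul_mem_smul (Ideal.mem_span_singleton_self (2 : ℤ)) (mul _ n2 _ hm)
      obtain ⟨o, -, rfl⟩ := (mI _).1 hm
      rwa [smul_mul_assoc, ← mul_assoc, ← mul_assoc, ea, two_smul, ← add_smul, add_halves,
        one_smul] at this
  have := r0 _ n2
  rw [← Int.cast_smul_eq_zsmul ℚ, smul_smul] at this
  refine e0 (qs0 (mul_ne_zero ?_ (by norm_num)) this)
  rw [Ideal.mem_span_singleton] at hr
  exact_mod_cast (by omega : r ≠ 0)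

end Cfsg.Agent.DR
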