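import Mathlib
import Cfsg.Agent.H5.InvSylow

/-! Interfaces for finite subgroups of `GL₂(D)`. -/

set_option autoImplicit false
open Subgroup

namespace Cfsg.Agent.DR

universe u v

/-- rings behaving like `M₂(D)` or `D`: no three nonzero orthogonal idempotents, regular -/
structure Ok (R : Type*) [Ring R] [Algebra ℚ R] : Prop where
  o3 : ∀ a b c : R, a * a = a → b * b = b → c * c = c → a * b = 0 → b * a = 0 → a * c = 0 →
    c * a = 0 → b * c = 0 → c * b = 0 → a = 0 ∨ b = 0 ∨ c = 0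
  reg : ∀ b : R, ∃ z, b * z * b = b

/-- `X` is `L₂(5)` or `L₂(9)` -/
def L59 (X : Type*) [Group X] : Prop :=
  ∃ (F : Type) (_ : Field F) (_ : Fintype F), (Fintype.card F = 5 ∨ Fintype.card F = 9) ∧
    Nonempty (X ≃* Matrix.ProjectiveSpecialLinearGroup (Fin 2) F)

/-- every nonabelian simple quotient of `G` is `L₂(5)` or `L₂(9)` -/
def Good (G : Type*) [Group G] : Prop :=
  ∀ (N : Subgroup G) [N.Normal], IsSimpleGroup (G ⧸ N) → ¬ IsMulCommutative (G ⧸ N) → L59 (G ⧸ N)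

/-- the abstract 2-local hypotheses; `ε` is the element acting as `-1` -/
structure Hy (G : Type*) [Group G] (ε : G) : Prop where
  perf : Group.IsPerfect G
  simp : IsSimpleGroup (G ⧸ center G)
  z2 : IsPGroup 2 (center G)
  e1 : ε ≠ 1
  e2 : ε * ε = 1
  ec : ∀ g, ε * g = g * ε
  zi : ∀ z ∈ center G, z * z = 1 → z = 1 ∨ z = ε
  a1 : ∀ t u : G, t * t = 1 → u * u = 1 → t * u = u * t → t ≠ 1 → t ≠ ε →
    u = 1 ∨ u = ε ∨ u = t ∨ u = ε * t
  a2 : ∀ x : G, x * x * (x * x) = 1 → x * x = 1 ∨ x * x = ε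

/-- the 2-local theorem: `ε` is the only involution -/
def TBThm : Prop :=
  ∀ (G : Type u) [Group G] [Finite G] (ε : G), Hy G ε → ∀ t : G, t * t = 1 → t = 1 ∨ t = ε

/-- membership in `⟨t, ε⟩` -/
def InU {G : Type*} [Group G] (ε t x : G) : Prop := x = 1 ∨ x = ε ∨ x = t ∨ x = ε * t

/-- the configuration `S = (⟨t⟩ × ⟨y, j⟩)⟨s⟩`, `⟨y, j⟩` quaternion of order `2 ^ (n + 3)` -/
structure Cf {G : Type*} [Group G] (S : Subgroup G) (ε t s y j : G) (n : ℕ) : Prop where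
  syl : H5.IsSylowOf 2 S ⊤
  tS : t ∈ S
  sS : s ∈ S
  yS : y ∈ S
  jS : j ∈ S
  t2 : t * t = 1
  t1 : t ≠ 1
  te : t ≠ ε
  s2 : s * s = 1
  st : s * t * s = ε * t
  idx : ∀ x ∈ S, x * t = t * x ∨ x * s * t = t * (x * s)
  yt : y * t = t * y
  jt : j * t = t * j
  oy : orderOf y = 2 ^ (n + 2)
  ye : y ^ 2 ^ (n + 1) = ε
  j2 : j * j = ε
  jy : j * y * j⁻¹ = y⁻¹
  nf : ∀ x ∈ S, x * t = t * x →
    ∃ i : ℤ, x = y ^ i ∨ x = t * y ^ i ∨ x = y ^ i * j ∨ x = t * y ^ i * j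
  zc : ∀ z ∈ center G, z = 1 ∨ z = ε

/-- `S / ⟨ε⟩` elementary of order 16 (Walter) or `E₄ × D` (S3113) -/
def CaseI : Prop :=
  ∀ (G : Type u) [Group G] [Finite G] (S : Subgroup G) (ε t s y j : G) (n : ℕ), Hy G ε →
    Cf S ε t s y j n → (∀ x ∈ S, x * t = t * x → InU ε t (x⁻¹ * (s * x * s))) → False

/-- `s` centralizes `w = y ^ 2 ^ n`, `n ≥ 1`, but not `C_S(t) / ⟨t, ε⟩` -/
def CaseG : Prop :=
  ∀ (G : Type u) [Group G] [Finite G] (S : Subgroup G) (ε t s y j : G) (n : ℕ), Hy G ε →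
    Cf S ε t s y j (n + 1) → s * y ^ 2 ^ (n + 1) * s = y ^ 2 ^ (n + 1) →
    (∃ x ∈ S, x * t = t * x ∧ ¬ InU ε t (x⁻¹ * (s * x * s))) → False

/-- Frobenius lemma: no element of odd prime order acts fixed-point-freely on a subgroup -/
def FLThm : Prop :=
  ∀ (R : Type v) [Ring R] [Algebra ℚ R] (G : Type u) [Group G] [Finite G] (ρ : G →* R), Ok R →
    Function.Injective ρ → ∀ (U : Subgroup G) (x : G), U ≠ ⊥ → (orderOf x).Prime → orderOf x ≠ 2 →
      (∀ a ∈ U, x * a * x⁻¹ ∈ U) → (∀ a ∈ U, x * a = a * x → a = 1) → False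

/-- endgame: perfect, unique involution acting as `-1`, centre a 2-group -/
def EndThm : Prop :=
  ∀ (R : Type v) [Ring R] [Algebra ℚ R] (G : Type u) [Group G] [Finite G] (ρ : G →* R) (ε : G),
    Ok R → Function.Injective ρ → ρ ε = -1 → Hy G ε → (∀ t : G, t * t = 1 → t = 1 ∨ t = ε) →
    (∀ H : Subgroup G, H ≠ ⊤ → Good H) → L59 (G ⧸ center G)

/-- main theorem -/
def MainThm : Prop :=
  ∀ (R : Type v) [Ring R] [Algebra ℚ R] (G : Type u) [Group G] [Finite G] (ρ : G →* R),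
    Ok R → Function.Injective ρ → Good G

end Cfsg.Agent.DR
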